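import Cfsg.Agent.H49.SylowCtl

set_option autoImplicit false

namespace Cfsg.Agent.H49

variable {G : Type*} [Group G]

/-- One step of a factorisation of a fusing element. -/
def FusStep (p : ℕ) (𝓕 : Set (Subgroup G)) (S : Subgroup G) (A : Set G) (u u' : G) : Prop :=
  ∃ Y ∈ Cfsg.sylowMembers p 𝓕 S, u⁻¹ * u' ∈ Y ∧ Cfsg.conjRight u' A ⊆ (S : Set G) ∩ (Y : Set G)

theorem prod_take_ofFn {n : ℕ} (y : Fin n → G) (U : Fin (n + 1) → G) (h0 : U 0 = 1)
    (hs : ∀ i : Fin n, U i.succ = U i.castSucc * y i) (i : Fin (n + 1)) :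
    ((List.ofFn y).take i.val).prod = U i := by
  induction i using Fin.induction with
  | zero => simp [h0]
  | succ i ih =>
    have hi : i.val < (List.ofFn y).length := by simp
    rw [Fin.val_succ, List.prod_take_succ _ _ hi, hs]
    rw [Fin.val_castSucc] at ih
    rw [ih]
    simp

theorem strong_iff {p : ℕ} {𝓕 : Set (Subgroup G)} :
    Cfsg.FamilyStronglyControlsFusion p 𝓕 ↔
      ∀ (S : Sylow p G) (A : Set G) (g : G), A ⊆ (S : Set G) → (∃ a ∈ A, a ≠ 1) →
        Cfsg.conjRight g A ⊆ (S : Set G) →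
        ∃ u : G, Relation.ReflTransGen (FusStep p 𝓕 (S : Subgroup G) A) 1 u ∧
          u⁻¹ * g ∈ Subgroup.normalizer ((S : Subgroup G) : Set G) := by
  constructor
  · intro h S A g hA ha hg
    obtain ⟨n, Y, y, y₀, hy₀, hY, hgp, hi⟩ := h S A g hA ha hg
    refine ⟨(List.ofFn y).prod, ?_, ?_⟩
    · rw [reflTransGen_iff_chain]
      refine ⟨n, fun i => ((List.ofFn y).take i.val).prod, by simp, ?_, ?_⟩
      · simp only [Fin.val_last]
        rw [List.take_of_length_le (by simp)]
      · intro i
        refine ⟨Y i, (hY i).1, ?_, ?_⟩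
        · have hi : i.val < (List.ofFn y).length := by simp
          simp only [Fin.val_castSucc, Fin.val_succ]
          rw [List.prod_take_succ _ _ hi, inv_mul_cancel_left]
          simpa using (hY i).2
        · exact hi i
    · rw [hgp, inv_mul_cancel_left]
      exact hy₀
  · intro h S A g hA ha hg
    obtain ⟨u, hu, hn⟩ := h S A g hA ha hg
    obtain ⟨n, c, h0, hl, hs⟩ := reflTransGen_iff_chain.1 hu
    choose Y hY1 hY2 hY3 using hs
    have key := prod_take_ofFn (fun i : Fin n => (c i.castSucc)⁻¹ * c i.succ) c h0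
      (fun i => by simp)
    refine ⟨n, Y, fun i => (c i.castSucc)⁻¹ * c i.succ, u⁻¹ * g, hn, fun i => ⟨hY1 i, hY2 i⟩,
      ?_, ?_⟩
    · have h1 := key (Fin.last n)
      simp only [Fin.val_last] at h1
      rw [List.take_of_length_le (by simp)] at h1
      rw [h1, hl]
      group
    · intro i
      have h1 := key i.succ
      rw [Fin.val_succ] at h1
      rw [h1]
      exact hY3 i

theorem mem_conjRight_set {g x : G} {A : Set G} (h : x ∈ A) : g⁻¹ * x * g ∈ Cfsg.conjRight g A :=
  ⟨x, h, rfl⟩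

/-- S2939 -/
theorem controls_iff_strong [Finite G] {p : ℕ} [Fact p.Prime] (𝓕 : Set (Subgroup G))
    (h𝓕 : Cfsg.IsNormalSet 𝓕) :
    Cfsg.ControlsSylowIntersections p 𝓕 ↔ Cfsg.FamilyStronglyControlsFusion p 𝓕 := by
  constructor
  · intro h
    rw [controls_iff] at h
    rw [strong_iff]
    intro S A g hA ⟨a, haA, ha1⟩ hg
    -- T = g • S
    have hAT : A ⊆ ((g • S : Sylow p G) : Subgroup G) := by
      intro x hx
      rw [SetLike.mem_coe, coe_smul_sylow, mem_subgroupConjRight]
      have h1 : g⁻¹ * x * g ∈ (S : Subgroup G) := hg (mem_conjRight_set hx)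
      simpa using h1
    have hne : (S : Subgroup G) ⊓ ((g • S : Sylow p G) : Subgroup G) ≠ ⊥ := by
      intro h1
      apply ha1
      have : a ∈ (S : Subgroup G) ⊓ ((g • S : Sylow p G) : Subgroup G) := ⟨hA haA, hAT haA⟩
      rwa [h1, Subgroup.mem_bot] at this
    have h2 := h S (g • S) hne
    have key : ∀ S' : Sylow p G,
        Relation.ReflTransGen (SylLink p 𝓕 ((S : Subgroup G) ⊓ ((g • S : Sylow p G) : Subgroup G)))
          S S' → ∃ u : G, Relation.ReflTransGen (FusStep p 𝓕 (S : Subgroup G) A) 1 u ∧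
            u • S = S' := by
      intro S' hS'
      induction hS' with
      | refl => exact ⟨1, .refl, one_smul _ _⟩
      | @tail S₁ S₂ _ hl ih =>
        obtain ⟨u, hu, rfl⟩ := ih
        obtain ⟨X, x, hX1, hX2, hx, hconj, hD⟩ := hl
        have hS₂ : (x * u) • S = S₂ := by
          apply Sylow.ext
          rw [mul_smul, coe_smul_sylow _ x, ← hconj, ← conjRight_mul, mul_inv_cancel,
            conjRight_one]
        refine ⟨x * u, hu.tail ⟨Cfsg.subgroupConjRight u X, ?_, ?_, ?_⟩, hS₂⟩
        · have h1 := sylowMembers_conjRight h𝓕 hX1 u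
          rwa [coe_smul_sylow, ← conjRight_mul, inv_mul_cancel, conjRight_one] at h1
        · rw [mem_subgroupConjRight]
          simpa [mul_assoc] using hx
        · rintro _ ⟨b, hb, rfl⟩
          have h3 := hD ⟨hA hb, hAT hb⟩
          refine ⟨?_, ?_⟩
          · have h4 := h3.1
            rw [← hS₂] at h4
            change b ∈ (((x * u) • S : Sylow p G) : Subgroup G) at h4
            rw [coe_smul_sylow, mem_subgroupConjRight, inv_inv] at h4
            exact h4
          · have h4 : b ∈ X := h3.2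
            rw [SetLike.mem_coe, mem_subgroupConjRight]
            have h5 := mul_mem (mul_mem (inv_mem hx) h4) hx
            simpa [mul_assoc] using h5
    obtain ⟨u, hu, hug⟩ := key _ h2
    refine ⟨u, hu, ?_⟩
    refine Sylow.smul_eq_iff_mem_normalizer.1 ?_
    rw [mul_smul, ← hug, inv_smul_smul]
  · intro h
    rw [strong_iff] at h
    rw [controls_iff]
    intro S T hne
    obtain ⟨g, hg⟩ := MulAction.exists_smul_eq G S T
    subst hg
    set D := (S : Subgroup G) ⊓ ((g • S : Sylow p G) : Subgroup G) with hD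
    have hex : ∃ a ∈ (D : Set G), a ≠ 1 := by
      obtain ⟨a, ha⟩ := (Subgroup.ne_bot_iff_exists_ne_one.1 hne)
      exact ⟨a, a.2, by simpa using ha⟩
    obtain ⟨u, hu, hn⟩ := h S D g (fun x hx => hx.1) hex (by
      rintro _ ⟨x, hx, rfl⟩
      have h1 := hx.2
      change x ∈ ((g • S : Sylow p G) : Subgroup G) at h1
      rw [coe_smul_sylow, mem_subgroupConjRight, inv_inv] at h1
      exact h1)
    have key : ∀ u : G, Relation.ReflTransGen (FusStep p 𝓕 (S : Subgroup G) D) 1 u →
        Relation.ReflTransGen (SylLink p 𝓕 D) S (u • S) := by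
      intro u hu
      induction hu with
      | refl => rw [one_smul]
      | @tail u₁ u₂ _ hl ih =>
        obtain ⟨Y, hY, huY, hDY⟩ := hl
        refine ih.tail ⟨Cfsg.subgroupConjRight u₁⁻¹ Y, u₂ * u₁⁻¹, ?_, ?_, ?_, ?_, ?_⟩
        · have h1 := sylowMembers_conjRight h𝓕 hY u₁⁻¹
          rwa [← coe_smul_sylow] at h1
        · have h1 := sylowMembers_conjRight h𝓕 hY u₂⁻¹
          rw [← coe_smul_sylow] at h1
          have h2 : Cfsg.subgroupConjRight u₂⁻¹ Y = Cfsg.subgroupConjRight u₁⁻¹ Y := by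
            have e : u₂⁻¹ = (u₁⁻¹ * u₂)⁻¹ * u₁⁻¹ := by group
            rw [e, conjRight_mul, conjRight_of_mem (inv_mem huY)]
          rwa [h2] at h1
        · rw [mem_subgroupConjRight]
          have e : u₁⁻¹ * (u₂ * u₁⁻¹) * u₁⁻¹⁻¹ = u₁⁻¹ * u₂ := by group
          rw [e]; exact huY
        · rw [coe_smul_sylow, coe_smul_sylow, ← conjRight_mul]
          congr 1
          group
        · intro x hx
          have h1 := hDY (mem_conjRight_set hx)
          refine ⟨?_, ?_⟩
          · change x ∈ ((u₂ • S : Sylow p G) : Subgroup G)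
            rw [coe_smul_sylow, mem_subgroupConjRight, inv_inv]
            exact h1.1
          · change x ∈ Cfsg.subgroupConjRight u₁⁻¹ Y
            rw [mem_subgroupConjRight]
            have h2 : u₂⁻¹ * x * u₂ ∈ Y := h1.2
            have h3 := mul_mem (mul_mem huY h2) (inv_mem huY)
            have e : u₁⁻¹ * u₂ * (u₂⁻¹ * x * u₂) * (u₁⁻¹ * u₂)⁻¹ = u₁⁻¹ * x * u₁⁻¹⁻¹ := by group
            rwa [e] at h3
    have h1 := key u hu
    have h2 : u • S = g • S := by
      have : (u⁻¹ * g) • S = S := Sylow.smul_eq_iff_mem_normalizer.2 hn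
      calc u • S = u • ((u⁻¹ * g) • S) := by rw [this]
        _ = g • S := by rw [← mul_smul]; simp
    rwa [h2] at h1

end Cfsg.Agent.H49
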