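import Mathlib.GroupTheory.Perm.Fin
import Cfsg.Prelude.Def_LocalEven

set_option autoImplicit false

open scoped Pointwise

namespace Cfsg.Agent.H49

theorem odd_degree_two_minimal (n : ℕ) (hn : Odd n)
    (h : Cfsg.IsPMinimal 2 (Equiv.Perm (Fin n))) : ∃ m : ℕ, n = 2 ^ m + 1 := by
  classical
  obtain ⟨P⟩ : Nonempty (Sylow 2 (Equiv.Perm (Fin n))) := inferInstance
  obtain ⟨hPn, M, ⟨hM, hPM⟩, huniq⟩ := h P
  have hcard : Nat.card (Fin n) = n := by simp
  obtain ⟨x0, hx0⟩ : (MulAction.fixedPoints P (Fin n)).Nonempty := by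
    apply P.2.nonempty_fixed_point_of_prime_not_dvd_card
    rw [hcard]
    exact hn.not_two_dvd_nat
  have hPx0 : ∀ g ∈ (P : Subgroup (Equiv.Perm (Fin n))), g x0 = x0 := fun g hg => hx0 ⟨g, hg⟩
  -- n > 1
  have hn1 : n ≠ 1 := by
    rintro rfl
    apply hPn
    refine ⟨fun g hg k => ?_⟩
    have : k * g * k⁻¹ = g := Subsingleton.elim _ _
    rwa [this]
  obtain ⟨x1, hx1⟩ : ∃ x1 : Fin n, x1 ≠ x0 := by
    have : Nontrivial (Fin n) := by
      have : 1 < n := by
        rcases n with _ | _ | n
        · exact absurd hn (by decide)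
        · exact absurd rfl hn1
        · omega
      exact Fin.nontrivial_iff_two_le.2 this
    exact exists_ne x0
  set O : Set (Fin n) := MulAction.orbit P x1 with hO
  have hx0O : x0 ∉ O := by
    rintro ⟨g, hg⟩
    apply hx1
    have h1 : (g : Equiv.Perm (Fin n)) x1 = x0 := hg
    have h2 := hPx0 g g.2
    rw [← h2] at h1
    exact (g : Equiv.Perm (Fin n)).injective h1
  have hx1O : x1 ∈ O := MulAction.mem_orbit_self x1
  by_cases hall : ∀ y, y ≠ x0 → y ∈ O
  · obtain ⟨m, hm⟩ := P.2.card_orbit x1
    refine ⟨m, ?_⟩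
    rw [← hm]
    have h1 : O = {x0}ᶜ := by
      ext y
      constructor
      · intro hy hy'
        rw [Set.mem_singleton_iff] at hy'
        exact hx0O (hy' ▸ hy)
      · intro hy
        exact hall y hy
    have h2 : Nat.card (MulAction.orbit P x1) = Nat.card ({x0}ᶜ : Set (Fin n)) := by
      rw [← h1]
    rw [h2, Nat.card_eq_fintype_card, Fintype.card_compl_set]
    simp
    have : 0 < n := by
      rcases n with _ | n
      · exact absurd hn (by decide)
      · omega
    omega
  · exfalso
    push Not at hall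
    obtain ⟨y, hyx0, hyO⟩ := hall
    -- the two subgroups
    have key : ∀ K : Subgroup (Equiv.Perm (Fin n)), (P : Subgroup (Equiv.Perm (Fin n))) ≤ K →
        K ≠ ⊤ → K ≤ M := by
      intro K hPK hK
      obtain ⟨M', hM', hKM'⟩ := (eq_top_or_exists_le_coatom K).resolve_left hK
      have := huniq M' ⟨hM', hPK.trans hKM'⟩
      rwa [this] at hKM'
    have h1 : MulAction.stabilizer (Equiv.Perm (Fin n)) x0 ≤ M := by
      apply key
      · intro g hg
        exact hPx0 g hg
      · intro htop
        have : Equiv.swap x0 x1 ∈ MulAction.stabilizer (Equiv.Perm (Fin n)) x0 := by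
          rw [htop]; trivial
        have h2 : Equiv.swap x0 x1 x0 = x0 := this
        rw [Equiv.swap_apply_left] at h2
        exact hx1 h2
    have hstab : ∀ g : Equiv.Perm (Fin n), (∀ z ∈ O, g z ∈ O) →
        g ∈ MulAction.stabilizer (Equiv.Perm (Fin n)) O := by
      intro g hg
      rw [MulAction.mem_stabilizer_iff]
      apply Set.eq_of_subset_of_ncard_le
      · rintro _ ⟨z, hz, rfl⟩
        exact hg z hz
      · rw [Set.ncard_smul_set]
      · exact Set.toFinite _
    have h2 : MulAction.stabilizer (Equiv.Perm (Fin n)) O ≤ M := by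
      apply key
      · intro g hg
        apply hstab
        rintro _ ⟨k, rfl⟩
        exact ⟨⟨g, hg⟩ * k, rfl⟩
      · intro htop
        have : Equiv.swap x0 x1 ∈ MulAction.stabilizer (Equiv.Perm (Fin n)) O := by
          rw [htop]; trivial
        rw [MulAction.mem_stabilizer_iff] at this
        apply hx0O
        rw [← this]
        exact ⟨x1, hx1O, by simp⟩
    have h3 : Equiv.swap x0 y ∈ M := by
      apply h2
      apply hstab
      intro z hz
      rw [Equiv.swap_apply_of_ne_of_ne]
      · exact hz
      · rintro rfl; exact hx0O hz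
      · rintro rfl; exact hyO hz
    -- M is everything
    apply hM.1
    rw [eq_top_iff]
    intro g _
    -- every g is in M : if g x0 = x0 fine
    have h4 : ∀ z, z ≠ x0 → Equiv.swap x0 z ∈ M := by
      intro z hz
      by_cases hzy : z = y
      · rw [hzy]; exact h3
      · have h5 : Equiv.swap y z ∈ M := by
          apply h1
          exact Equiv.swap_apply_of_ne_of_ne (Ne.symm hyx0) (Ne.symm hz)
        have h6 : Equiv.swap y z * Equiv.swap x0 y * Equiv.swap y z = Equiv.swap x0 z := by
          rw [Equiv.swap_mul_swap_mul_swap (Ne.symm hyx0) (Ne.symm hz), Equiv.swap_comm]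
        rw [← h6]
        exact mul_mem (mul_mem h5 h3) h5
    by_cases hg : g x0 = x0
    · exact h1 hg
    · have h5 := h4 (g x0) hg
      have h6 : Equiv.swap x0 (g x0) * g ∈ M := by
        apply h1
        change Equiv.swap x0 (g x0) (g x0) = x0
        simp
      have h7 : g = Equiv.swap x0 (g x0) * (Equiv.swap x0 (g x0) * g) := by
        rw [← mul_assoc, Equiv.swap_mul_self, one_mul]
      rw [h7]
      exact mul_mem h5 h6

end Cfsg.Agent.H49
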